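import Cfsg.Agent.SchurMult.Central
import Cfsg.Agent.Eq.Def_KGroupFacts

/-! The commutator map on the quotient of a central extension. -/

set_option autoImplicit false

open scoped commutatorElement

namespace CfsgLib.L34Mult

universe u v

/-- A central extension. -/
structure CExt (Γ : Type u) (G : Type v) [Group Γ] [Group G] where
  /-- the projection -/
  σ : Γ →* G
  surj : Function.Surjective σ
  central : σ.ker ≤ Subgroup.center Γ

namespace CExt

variable {Γ : Type u} {G : Type v} [Group Γ] [Group G] (E : CExt Γ G)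

/-- A lift. -/
noncomputable def lift (g : G) : Γ := Function.surjInv E.surj g

theorem σ_lift (g : G) : E.σ (E.lift g) = g := Function.surjInv_eq E.surj g

/-- The commutator of any two lifts. -/
noncomputable def C (g h : G) : Γ := ⁅E.lift g, E.lift h⁆

theorem C_eq {x y : Γ} {g h : G} (hx : E.σ x = g) (hy : E.σ y = h) : ⁅x, y⁆ = E.C g h := by
  have hk : ∀ {x : Γ} {g : G}, E.σ x = g → x * (E.lift g)⁻¹ ∈ Subgroup.center Γ := fun {x g} e =>
    E.central (by rw [MonoidHom.mem_ker, map_mul, map_inv, σ_lift, e, mul_inv_cancel])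
  have := CfsgLib.SchurMult.commutatorElement_mul_central (a := E.lift g) (b := E.lift h) (hk hx) (hk hy)
  rwa [inv_mul_cancel_right, inv_mul_cancel_right] at this

theorem σ_C (g h : G) : E.σ (E.C g h) = ⁅g, h⁆ := by
  rw [C, map_commutatorElement, σ_lift, σ_lift]

theorem C_one_left (h : G) : E.C 1 h = 1 := by
  rw [← E.C_eq (map_one E.σ) (E.σ_lift h)]; simp

theorem C_one_right (g : G) : E.C g 1 = 1 := by
  rw [← E.C_eq (E.σ_lift g) (map_one E.σ)]; simp

theorem C_swap (g h : G) : E.C h g = (E.C g h)⁻¹ := (commutatorElement_inv _ _).symm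

theorem mem_center_C {g h : G} (hgh : g * h = h * g) : E.C g h ∈ Subgroup.center Γ :=
  E.central (by rw [MonoidHom.mem_ker, σ_C, commutatorElement_eq_one_iff_mul_comm.2 hgh])

theorem C_mul_left (g g' h : G) :
    E.C (g * g') h = E.lift g * E.C g' h * (E.lift g)⁻¹ * E.C g h := by
  rw [← E.C_eq (x := E.lift g * E.lift g') (y := E.lift h) (by rw [map_mul, σ_lift, σ_lift]) (E.σ_lift h)]
  simp only [C, commutatorElement_def]
  group

theorem C_mul_right (g h h' : G) :
    E.C g (h * h') = E.C g h * (E.lift h * E.C g h' * (E.lift h)⁻¹) := by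
  rw [← E.C_eq (x := E.lift g) (y := E.lift h * E.lift h') (E.σ_lift g) (by rw [map_mul, σ_lift, σ_lift])]
  simp only [C, commutatorElement_def]
  group

theorem conj_center {x z : Γ} (hz : z ∈ Subgroup.center Γ) : x * z * x⁻¹ = z := by
  rw [Subgroup.mem_center_iff.1 hz x, mul_inv_cancel_right]

theorem C_mul_left_central {g g' h : G} (h1 : g' * h = h * g') :
    E.C (g * g') h = E.C g' h * E.C g h := by
  rw [C_mul_left, conj_center (E.mem_center_C h1)]

theorem C_mul_right_central {g h h' : G} (h1 : g * h' = h' * g) :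
    E.C g (h * h') = E.C g h * E.C g h' := by
  rw [C_mul_right, conj_center (E.mem_center_C h1)]

theorem C_conj_eq_one {g h : G} (k : G) (h1 : E.C g h = 1) :
    E.C (k * g * k⁻¹) (k * h * k⁻¹) = 1 := by
  have e : ∀ x, E.σ (E.lift k * E.lift x * (E.lift k)⁻¹) = k * x * k⁻¹ := fun x => by
    rw [map_mul, map_mul, map_inv, σ_lift, σ_lift]
  rw [← E.C_eq (e g) (e h), show ⁅E.lift k * E.lift g * (E.lift k)⁻¹, E.lift k * E.lift h * (E.lift k)⁻¹⁆ =
    E.lift k * E.C g h * (E.lift k)⁻¹ by simp only [C, commutatorElement_def]; group, h1, mul_one, mul_inv_cancel]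

/-- Conjugation by a lift, on an element over `v`. -/
theorem conj_eq {x d : Γ} {g v : G} (hx : E.σ x = g) (hd : E.σ d = v) :
    x * d * x⁻¹ = E.C g v * d := by
  rw [← E.C_eq hx hd, commutatorElement_def, inv_mul_cancel_right]

/-- An element commutes modulo the kernel with two others, hence with their commutator. -/
theorem C_commutator_eq_one {t g h : G} (h1 : t * g = g * t) (h2 : t * h = h * t) :
    E.C ⁅g, h⁆ t = 1 := by
  rw [← E.C_eq (E.σ_C g h) (E.σ_lift t), commutatorElement_eq_one_iff_mul_comm]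
  have e1 := E.conj_eq (E.σ_lift t) (E.σ_lift g)
  have e2 := E.conj_eq (E.σ_lift t) (E.σ_lift h)
  have key : E.lift t * E.C g h * (E.lift t)⁻¹ = E.C g h :=
    calc E.lift t * E.C g h * (E.lift t)⁻¹
        = ⁅E.lift t * E.lift g * (E.lift t)⁻¹, E.lift t * E.lift h * (E.lift t)⁻¹⁆ := by
          simp only [C, commutatorElement_def]; group
      _ = ⁅E.C t g * E.lift g, E.C t h * E.lift h⁆ := by rw [e1, e2]
      _ = E.C g h := CfsgLib.SchurMult.commutatorElement_mul_central (E.mem_center_C h1) (E.mem_center_C h2)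
  exact (mul_inv_eq_iff_eq_mul.1 key).symm

end CExt

end CfsgLib.L34Mult
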